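import Mathlib

/-!
# The quaternion subgroup of `SL₂(3)`
-/

set_option autoImplicit false

namespace Cfsg.Agent.H836.T3SL

/-- `SL₂(3)` -/
abbrev SL : Type := Matrix.SpecialLinearGroup (Fin 2) (ZMod 3)

theorem pow8 : ∀ a : SL, a ^ 8 = 1 → a ^ 4 = 1 := by decide +kernel

theorem pow24 : ∀ a : SL, a ^ 24 = 1 := by decide +kernel

theorem sq_eq : ∀ a : SL, a ^ 4 = 1 → a * a = 1 ∨ a * a = -1 := by decide +kernel

theorem mul4 : ∀ a b : SL, a ^ 4 = 1 → b ^ 4 = 1 → (a * b) ^ 4 = 1 := by decide +kernel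

theorem comm4 : ∀ a b : SL, a ^ 4 = 1 → b ^ 4 = 1 → a * b * a⁻¹ * b⁻¹ = 1 ∨ a * b * a⁻¹ * b⁻¹ = -1 := by
  decide +kernel

theorem comm_ne : ∀ a k : SL, a ^ 4 = 1 → a * a ≠ 1 → k ^ 4 ≠ 1 →
    (a * k * a⁻¹ * k⁻¹) * (a * k * a⁻¹ * k⁻¹) ≠ 1 := by
  decide +kernel

theorem noncomm : ∀ a k : SL, a ^ 4 = 1 → a * a ≠ 1 → k ^ 4 ≠ 1 → a * (k * a * k⁻¹) ≠ k * a * k⁻¹ * a := by
  decide +kernel

theorem card_four : (Finset.univ.filter (fun a : SL => a ^ 4 = 1)).card = 8 := by decide +kernel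

/-- the quaternion group -/
def Q8 : Subgroup SL where
  carrier := {a | a ^ 4 = 1}
  mul_mem' := fun {a b} ha hb => mul4 a b ha hb
  one_mem' := one_pow 4
  inv_mem' := fun {a} ha => by
    change a⁻¹ ^ 4 = 1
    have h : a ^ 4 = 1 := ha
    rw [inv_pow, h, inv_one]

theorem mem_Q8 {a : SL} : a ∈ Q8 ↔ a ^ 4 = 1 := Iff.rfl

instance q8_normal : Q8.Normal := ⟨fun a ha g => by
  rw [mem_Q8] at ha ⊢
  rw [conj_pow, ha, mul_one, mul_inv_cancel]⟩

theorem card_Q8 : Nat.card Q8 = 8 := by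
  have h : Nat.card Q8 = Nat.card {a : SL // a ^ 4 = 1} := rfl
  rw [h, Nat.card_eq_fintype_card, Fintype.card_subtype, card_four]

theorem card_SL : Nat.card SL = 24 := by
  rw [Nat.card_eq_fintype_card]
  decide +kernel

theorem card_quot : Nat.card (SL ⧸ Q8) = 3 := by
  have h1 := Subgroup.card_eq_card_quotient_mul_card_subgroup Q8
  rw [card_SL, card_Q8] at h1
  omega

end Cfsg.Agent.H836.T3SL
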