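import Cfsg.Agent.S0811

/-!
# A subgroup of order 12 of `PSL₂(11)` with a normal subgroup of order 3
-/

set_option autoImplicit false

namespace Cfsg.Agent.H836.PslEleven

open Subgroup

theorem exists_dih {S : Type*} [Group S] (h : Nonempty (S ≃* Matrix.ProjectiveSpecialLinearGroup (Fin 2) (ZMod 11))) :
    ∃ K R : Subgroup S, Nat.card K = 12 ∧ Nat.card R = 3 ∧ R ≤ K ∧ ∀ k ∈ K, ∀ r ∈ R, k * r * k⁻¹ ∈ R := by
  obtain ⟨e⟩ := h
  have : Fact (Nat.Prime 11) := ⟨by norm_num⟩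
  obtain ⟨H, -, ⟨f⟩⟩ := Cfsg.Agent.S0811.result (F := ZMod 11) (q := 11) (ZMod.card 11) (by decide)
  have h6 : (11 + 1) / Nat.gcd 2 (11 - 1) = 6 := by decide
  rw [h6] at f
  let j : DihedralGroup 6 →* S := (e.symm.toMonoidHom.comp H.subtype).comp f.symm.toMonoidHom
  have hj : Function.Injective j := (e.symm.injective.comp H.subtype_injective).comp f.symm.injective
  refine ⟨j.range, (zpowers (DihedralGroup.r 2 : DihedralGroup 6)).map j, ?_, ?_, ?_, ?_⟩
  · rw [← Nat.card_congr (MonoidHom.ofInjective hj).toEquiv, DihedralGroup.nat_card]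
  · rw [card_map_of_injective hj, Nat.card_zpowers]
    exact (orderOf_eq_prime (p := 3) (by decide) (by decide))
  · rintro _ ⟨y, -, rfl⟩
    exact ⟨y, rfl⟩
  · rintro _ ⟨y, rfl⟩ _ ⟨z, hz, rfl⟩
    refine ⟨y * z * y⁻¹, ?_, by simp⟩
    obtain ⟨i, rfl⟩ := mem_zpowers_iff.1 hz
    rw [← conj_zpow]
    refine zpow_mem ?_ i
    have h1 : ∀ y : DihedralGroup 6, y * DihedralGroup.r 2 * y⁻¹ = DihedralGroup.r 2 ∨
        y * DihedralGroup.r 2 * y⁻¹ = (DihedralGroup.r 2)⁻¹ := by decide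
    rcases h1 y with h | h
    · rw [h]
      exact mem_zpowers _
    · rw [h]
      exact inv_mem (mem_zpowers _)

end Cfsg.Agent.H836.PslEleven
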