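import Cfsg.Agent.H836.S3Lin
import Cfsg.Prelude.Def_LieTypeChar
import Cfsg.Prelude.Def_Sz
import Cfsg.Agent.S0243
import Cfsg.Agent.S0245
import Cfsg.Agent.S0246
import Cfsg.Agent.S0279
import Cfsg.Agent.S0280
import Cfsg.Agent.S0293
import Cfsg.Agent.S0294
import Cfsg.Agent.S1059
import Cfsg.Agent.S1062
import Cfsg.Agent.S1063
import Cfsg.Agent.S1064
import Cfsg.Agent.S1065
import Cfsg.Agent.S1066
import Cfsg.Agent.S1067
import Cfsg.Agent.S1068
import Cfsg.Agent.S2680
import Cfsg.Agent.S2681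
import Cfsg.Agent.S2682
import Cfsg.Agent.OddCyclic.CompMain

/-!
# Groups of Lie type in characteristic 2 with Sylow 2-subgroups of order `2^18` (helper836)

`lie18` : in such a group no involution has a centraliser of order `2^18 · 3^a · 5` with `a = 4` or `a = 5`.
-/

set_option autoImplicit false
set_option linter.unusedTactic false
set_option linter.unreachableTactic false

namespace Cfsg.Agent.H836.Lie18

open Cfsg Subgroup

/-- `c = 2^18 m`, `m` odd, `405 ∣ c` -/
structure N18 (c : ℕ) : Prop where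
  odd : ∃ m, Odd m ∧ c = 2 ^ 18 * m
  dvd : 405 ∣ c

theorem pow_eq {n k u v : ℕ} (hu : Odd u) (hv : Odd v) (h : 2 ^ n * u = 2 ^ k * v) : n = k := by
  have h1 : 2 ^ n ∣ 2 ^ k := by
    have : 2 ^ n ∣ 2 ^ k * v := ⟨u, h.symm⟩
    exact (Nat.Coprime.pow_left n (Nat.coprime_two_left.2 hv)).dvd_of_dvd_mul_right this
  have h2 : 2 ^ k ∣ 2 ^ n := by
    have : 2 ^ k ∣ 2 ^ n * u := ⟨v, h⟩
    exact (Nat.Coprime.pow_left k (Nat.coprime_two_left.2 hu)).dvd_of_dvd_mul_right this
  exact Nat.pow_right_injective le_rfl (Nat.dvd_antisymm h1 h2)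

theorem N18.pin {c d N u : ℕ} (h : N18 c) (hd : Odd d) (hu : Odd u) (he : d * c = 2 ^ N * u) : N = 18 := by
  obtain ⟨m, hm, rfl⟩ := h.odd
  refine pow_eq hu (hd.mul hm) ?_
  rw [← he]; ring

theorem N18.big {c d w : ℕ} (h : N18 c) (hd : Odd d) (he : d * c = w) (hw : 2 ^ 19 ∣ w) : False := by
  obtain ⟨m, hm, rfl⟩ := h.odd
  have h1 : 2 ^ 19 ∣ 2 ^ 18 * (d * m) := by
    have : 2 ^ 18 * (d * m) = w := by rw [← he]; ring
    rw [this]; exact hw
  have h2 : 2 ^ 19 ∣ 2 ^ 18 :=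
    (Nat.Coprime.pow_left 19 (Nat.coprime_two_left.2 (hd.mul hm))).dvd_of_dvd_mul_right h1
  norm_num at h2

theorem N18.dvd_mul {c d : ℕ} (h : N18 c) : 405 ∣ d * c := Dvd.dvd.mul_left h.dvd d

theorem exists_pow {F : Type*} [Field F] [Fintype F] [CharP F 2] : ∃ f : ℕ, 1 ≤ f ∧ Fintype.card F = 2 ^ f := by
  obtain ⟨n, -, hn⟩ := FiniteField.card F 2
  exact ⟨n, n.2, hn⟩

theorem odd_sub {f : ℕ} (hf : 1 ≤ f) : Odd (2 ^ f - 1) := by
  have h1 : 1 ≤ 2 ^ f := Nat.one_le_two_pow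
  obtain ⟨g, rfl⟩ := Nat.exists_eq_add_of_le hf
  rw [Nat.odd_sub h1, pow_add]
  simp

theorem odd_add {f : ℕ} (hf : 1 ≤ f) : Odd (2 ^ f + 1) := by
  obtain ⟨g, rfl⟩ := Nat.exists_eq_add_of_le hf
  rw [pow_add]
  simp

theorem odd_sub' {f e : ℕ} (hf : 1 ≤ f) (he : 1 ≤ e) : Odd ((2 ^ f) ^ e - 1) := by
  rw [← pow_mul]; exact odd_sub (Nat.mul_pos hf he)

theorem odd_add' {f e : ℕ} (hf : 1 ≤ f) (he : 1 ≤ e) : Odd ((2 ^ f) ^ e + 1) := by
  rw [← pow_mul]; exact odd_add (Nat.mul_pos hf he)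

theorem odd_gcd {a b : ℕ} (h : Odd b) : Odd (Nat.gcd a b) := Odd.of_dvd_nat h (Nat.gcd_dvd_right _ _)

theorem odd_prod {s : Finset ℕ} {g : ℕ → ℕ} (h : ∀ i ∈ s, Odd (g i)) : Odd (∏ i ∈ s, g i) := by
  induction s using Finset.cons_induction with
  | empty => exact odd_one
  | cons a s ha ih =>
    rw [Finset.prod_cons]
    exact (h a (Finset.mem_cons_self a s)).mul (ih fun i hi => h i (Finset.mem_cons_of_mem hi))

/-! ### linear groups -/

theorem psl_two_part (q n : ℕ) :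
    ∏ i ∈ Finset.range n, (q ^ n - q ^ i) = q ^ (n * (n - 1) / 2) * ∏ i ∈ Finset.range n, (q ^ (n - i) - 1) := by
  rw [← Finset.sum_range_id, ← Finset.prod_pow_eq_pow_sum, ← Finset.prod_mul_distrib]
  refine Finset.prod_congr rfl fun i hi => ?_
  rw [Finset.mem_range] at hi
  rw [Nat.mul_sub, mul_one, ← pow_add, Nat.add_sub_cancel' hi.le]

theorem psl {F : Type*} [Field F] [Fintype F] {f n : ℕ} (hF : Fintype.card F = 2 ^ f) (hf : 1 ≤ f) (hn : 2 ≤ n)
    (h : N18 (Nat.card (Matrix.ProjectiveSpecialLinearGroup (Fin n) F))) : (n = 3 ∧ f = 6) ∨ (n = 4 ∧ f = 3) := by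
  have h0 := Cfsg.Agent.S0243.result (F := F) hF n hn
  rw [← mul_assoc] at h0
  have hd : Odd (Nat.gcd n (2 ^ f - 1) * (2 ^ f - 1)) := (odd_gcd (odd_sub hf)).mul (odd_sub hf)
  have h1 := h0
  rw [Fin.prod_univ_eq_prod_range (fun i => (2 ^ f) ^ n - (2 ^ f) ^ i) n,
    psl_two_part, ← pow_mul] at h1
  have hu : Odd (∏ i ∈ Finset.range n, ((2 ^ f) ^ (n - i) - 1)) := by
    refine odd_prod fun i hi => ?_
    rw [Finset.mem_range] at hi
    exact odd_sub' hf (by omega)
  have hk := h.pin hd hu h1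
  have h81 : 405 ∣ ∏ i : Fin n, ((2 ^ f) ^ n - (2 ^ f) ^ (i : ℕ)) := by
    rw [← h0]; exact h.dvd_mul
  have hn6 : n ≤ 6 := by
    by_contra hlt
    have h1 : 7 * 6 ≤ n * (n - 1) := Nat.mul_le_mul (by omega) (by omega)
    have h2 : 21 ≤ n * (n - 1) / 2 := by omega
    have h3 : 1 * 21 ≤ f * (n * (n - 1) / 2) := Nat.mul_le_mul hf h2
    omega
  have h0' := h0
  clear h1 hu hd
  interval_cases n
  · exfalso
    have : f = 18 := by omega
    subst this
    -- `gcd(2, q-1) (q-1) |PSL| = (q²-1)(q²-q)`, the 3-part is too small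
    have h5 := h.dvd
    rw [Fin.prod_univ_two] at h0
    norm_num at h0
    have h6 : Nat.card (Matrix.ProjectiveSpecialLinearGroup (Fin 2) F) = 18014398509219840 := by omega
    rw [h6] at h5
    norm_num at h5
  · left
    exact ⟨rfl, by omega⟩
  · right
    exact ⟨rfl, by omega⟩
  · omega
  · omega

/-! ### symplectic groups -/

theorem psp {F : Type*} [Field F] [Fintype F] {f m : ℕ} (hF : Fintype.card F = 2 ^ f) (hf : 1 ≤ f) (hm : 2 ≤ m)
    (h : N18 (Nat.card (PSp m F))) : m = 3 ∧ f = 2 := by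
  have h1 := Cfsg.Agent.S0245.result (F := F) hF m
  have h2 := Cfsg.Agent.S0246.result (F := F) hF m (by omega)
  have h3 := Subgroup.card_eq_card_quotient_mul_card_subgroup
    (Subgroup.center (Matrix.symplecticGroup (Fin m) F))
  rw [h1, h2, mul_comm (Nat.card _), ← pow_mul] at h3
  have hd : Odd (Nat.gcd 2 (2 ^ f - 1)) := odd_gcd (odd_sub hf)
  have hu : Odd (∏ i ∈ Finset.range m, ((2 ^ f) ^ (2 * (i + 1)) - 1)) :=
    odd_prod fun i hi => odd_sub' hf (by omega)
  have hk := h.pin hd hu h3.symm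
  have hm4 : m ≤ 4 := by
    by_contra hlt
    have h1 : 5 ^ 2 ≤ m ^ 2 := Nat.pow_le_pow_left (by omega) 2
    have h3 : 1 * 5 ^ 2 ≤ f * m ^ 2 := Nat.mul_le_mul hf h1
    omega
  clear h1 h2 h3 hu hd h
  interval_cases m <;> omega

/-! ### unitary groups -/

theorem psu {F : Type*} [Field F] [Fintype F] {f n : ℕ} (hF : Fintype.card F = (2 ^ f) ^ 2) (hf : 1 ≤ f)
    (hn : 3 ≤ n) (h : N18 (Nat.card (PSU n F (2 ^ f)))) : n = 4 ∧ f = 3 := by
  have h0 := Cfsg.Agent.S0280.result (F := F) hF n (by omega)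
  rw [← mul_assoc] at h0
  have hd : Odd (Nat.gcd n (2 ^ f + 1) * (2 ^ f + 1)) := (odd_gcd (odd_add hf)).mul (odd_add hf)
  have h1 := h0
  rw [← pow_mul] at h1
  have hu : Odd (∏ i ∈ Finset.range n, (if Even i then (2 ^ f) ^ (i + 1) + 1 else (2 ^ f) ^ (i + 1) - 1)) := by
    refine odd_prod fun i hi => ?_
    split_ifs
    · exact odd_add' hf (by omega)
    · exact odd_sub' hf (by omega)
  have hk := h.pin hd hu h1
  have hn6 : n ≤ 6 := by
    by_contra hlt
    have h1 : 7 * 6 ≤ n * (n - 1) := Nat.mul_le_mul (by omega) (by omega)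
    have h2 : 21 ≤ n * (n - 1) / 2 := by omega
    have h3 : 1 * 21 ≤ f * (n * (n - 1) / 2) := Nat.mul_le_mul hf h2
    omega
  have h81 := h.dvd
  clear h1 hu hd h
  interval_cases n
  · exfalso
    have : f = 6 := by omega
    subst this
    rw [Finset.prod_range_succ, Finset.prod_range_succ, Finset.prod_range_one] at h0
    norm_num at h0
    have h2 : Nat.card (PSU 3 F 64) = 281407330713600 := by omega
    norm_num at h81
    rw [h2] at h81
    omega
  · exact ⟨rfl, by omega⟩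
  · omega
  · omega

/-! ### orthogonal groups -/

theorem plus {F : Type*} [Field F] [Fintype F] {f m : ℕ} (hF : Fintype.card F = 2 ^ f) (hf : 1 ≤ f) (hm : 4 ≤ m)
    (h : N18 (Nat.card (POmega F (quadFormPlus m F)))) : False := by
  have h0 := Cfsg.Agent.S0293.result (F := F) hF m hm
  have hd : Odd (Nat.gcd 4 ((2 ^ f) ^ m - 1)) := odd_gcd (odd_sub' hf (by omega))
  rw [mul_assoc, ← pow_mul 2 f (m * (m - 1))] at h0
  have hu : Odd (((2 ^ f) ^ m - 1) * ∏ i ∈ Finset.range (m - 1), ((2 ^ f) ^ (2 * (i + 1)) - 1)) :=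
    (odd_sub' hf (by omega)).mul (odd_prod fun i hi => odd_sub' hf (by omega))
  have hk := h.pin hd hu h0
  have h4 : m < 5 := by
    by_contra hlt
    have h1 : 5 * 4 ≤ m * (m - 1) := Nat.mul_le_mul (by omega) (by omega)
    have h3 : 1 * 20 ≤ f * (m * (m - 1)) := Nat.mul_le_mul hf h1
    omega
  have h5 : m = 4 := by omega
  subst h5
  omega

theorem minus {F : Type*} [Field F] [Fintype F] {f m : ℕ} (hF : Fintype.card F = 2 ^ f) (hf : 1 ≤ f) (hm : 4 ≤ m)
    (a b : F) (hab : ∀ z₁ z₂ : F, z₁ ^ 2 + a * z₁ * z₂ + b * z₂ ^ 2 = 0 → z₁ = 0 ∧ z₂ = 0)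
    (h : N18 (Nat.card (POmega F (quadFormMinus (m - 1) F a b)))) : False := by
  have h0 := Cfsg.Agent.S0294.result (F := F) hF m hm a b hab
  have hd : Odd (Nat.gcd 4 ((2 ^ f) ^ m + 1)) := odd_gcd (odd_add' hf (by omega))
  rw [mul_assoc, ← pow_mul 2 f (m * (m - 1))] at h0
  have hu : Odd (((2 ^ f) ^ m + 1) * ∏ i ∈ Finset.range (m - 1), ((2 ^ f) ^ (2 * (i + 1)) - 1)) :=
    (odd_add' hf (by omega)).mul (odd_prod fun i hi => odd_sub' hf (by omega))
  have hk := h.pin hd hu h0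
  have h4 : m < 5 := by
    by_contra hlt
    have h1 : 5 * 4 ≤ m * (m - 1) := Nat.mul_le_mul (by omega) (by omega)
    have h3 : 1 * 20 ≤ f * (m * (m - 1)) := Nat.mul_le_mul hf h1
    omega
  have h5 : m = 4 := by omega
  subst h5
  omega

/-! ### exceptional groups -/

theorem pow_le {q e N : ℕ} (hq : 2 ∣ q) (he : e ≤ N) : 2 ^ e ∣ q ^ N :=
  (pow_dvd_pow _ he).trans (pow_dvd_pow_of_dvd hq _)

theorem exc {F : Type} [Field F] [Fintype F] [CharP F 2] {K : Type*} [Group K]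
    (h : (3 ≤ Fintype.card F ∧ Nonempty (K ≃* Lie.chevG2.group F)) ∨ Nonempty (K ≃* Lie.chevF4.group F) ∨
      Nonempty (K ≃* Lie.chevE6.group F) ∨ Nonempty (K ≃* Lie.chevE7.group F) ∨ Nonempty (K ≃* Lie.chevE8.group F))
    (hk : N18 (Nat.card K)) : False := by
  obtain ⟨f, hf, hF⟩ := exists_pow (F := F)
  have h2 : 2 ∣ 2 ^ f := dvd_pow_self _ (by omega)
  rcases h with ⟨h3, ⟨e⟩⟩ | ⟨⟨e⟩⟩ | ⟨⟨e⟩⟩ | ⟨⟨e⟩⟩ | ⟨⟨e⟩⟩
  · have h0 := Cfsg.Agent.S1059.result hF
    rw [← Nat.card_congr e.toEquiv, mul_assoc] at h0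
    have h1 : 1 * Nat.card K = 2 ^ (f * 6) * (((2 ^ f) ^ 2 - 1) * ((2 ^ f) ^ 6 - 1)) := by
      rw [pow_mul 2 f 6, one_mul]; exact h0
    have hp := hk.pin (d := 1) odd_one
      ((odd_sub' (e := 2) hf (by norm_num)).mul (odd_sub' (e := 6) hf (by norm_num))) h1
    have hf3 : f = 3 := by omega
    subst hf3
    have h5 := hk.dvd
    rw [h0] at h5
    norm_num at h5
  · have h0 := Cfsg.Agent.S1062.result hF
    rw [← Nat.card_congr e.toEquiv] at h0
    refine hk.big (d := 1) odd_one ((one_mul _).trans h0) ?_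
    exact (pow_le h2 (show 19 ≤ 24 by norm_num)).trans (by simp only [mul_assoc]; exact dvd_mul_right _ _)
  · have h0 := Cfsg.Agent.S1063.result hF
    rw [← Nat.card_congr e.toEquiv] at h0
    refine hk.big (odd_gcd (odd_sub hf)) h0 ?_
    exact (pow_le h2 (show 19 ≤ 36 by norm_num)).trans (by simp only [mul_assoc]; exact dvd_mul_right _ _)
  · have h0 := Cfsg.Agent.S1064.result hF
    rw [← Nat.card_congr e.toEquiv] at h0
    refine hk.big (odd_gcd (odd_sub hf)) h0 ?_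
    exact (pow_le h2 (show 19 ≤ 63 by norm_num)).trans (by simp only [mul_assoc]; exact dvd_mul_right _ _)
  · have h0 := Cfsg.Agent.S1065.result hF
    rw [← Nat.card_congr e.toEquiv] at h0
    refine hk.big (d := 1) odd_one ((one_mul _).trans h0) ?_
    exact (pow_le h2 (show 19 ≤ 120 by norm_num)).trans (by simp only [mul_assoc]; exact dvd_mul_right _ _)

theorem two_dvd_of {K : Type*} [Field K] [Fintype K] [CharP K 2] {q n : ℕ} (h : Fintype.card K = q ^ n) : 2 ∣ q := by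
  obtain ⟨f, hf, hF⟩ := exists_pow (F := K)
  refine Nat.prime_two.dvd_of_dvd_pow (n := n) ?_
  rw [← h, hF]
  exact dvd_pow_self _ (by omega)

/-- `q = 2^f` if `|K| = q^n` -/
theorem exists_pow' {K : Type*} [Field K] [Fintype K] [CharP K 2] {q n : ℕ} (hn : n ≠ 0)
    (h : Fintype.card K = q ^ n) : ∃ f, 1 ≤ f ∧ q = 2 ^ f := by
  obtain ⟨g, hg, hG⟩ := exists_pow (F := K)
  have h1 : q ^ n = 2 ^ g := by rw [← h, hG]
  obtain ⟨f, -, hf⟩ := (Nat.dvd_prime_pow Nat.prime_two).1 (show q ∣ 2 ^ g by rw [← h1]; exact dvd_pow_self _ hn)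
  refine ⟨f, ?_, hf⟩
  rcases Nat.eq_zero_or_pos f with h0 | h0
  · subst h0
    have h2 := two_dvd_of h
    rw [hf] at h2
    norm_num at h2
  · exact h0

theorem twisted {F : Type} [Field F] [Fintype F] [CharP F 2] {K : Type*} [Group K] {q : ℕ} (hq : IsPrimePow q)
    (h : (Fintype.card F = q ^ 2 ∧ Nonempty (K ≃* Lie.twistedE6 F q)) ∨
      (Fintype.card F = q ^ 3 ∧ Nonempty (K ≃* Lie.twistedD4 F q))) (hk : N18 (Nat.card K)) : False := by
  rcases h with ⟨h3, ⟨e⟩⟩ | ⟨h3, ⟨e⟩⟩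
  · have h2 := two_dvd_of h3
    have h0 := Cfsg.Agent.S1066.result hq h3
    rw [← Nat.card_congr e.toEquiv] at h0
    refine hk.big (odd_gcd ?_) h0 ?_
    · exact Even.add_one (even_iff_two_dvd.2 h2)
    · exact (pow_le h2 (show 19 ≤ 36 by norm_num)).trans (by simp only [mul_assoc]; exact dvd_mul_right _ _)
  · obtain ⟨f, hf, rfl⟩ := exists_pow' (by norm_num) h3
    have h0 := Cfsg.Agent.S1067.result hq h3
    rw [← Nat.card_congr e.toEquiv, mul_assoc, mul_assoc] at h0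
    have h1 : 1 * Nat.card K =
        2 ^ (f * 12) * (((2 ^ f) ^ 2 - 1) * (((2 ^ f) ^ 6 - 1) * ((2 ^ f) ^ 8 + (2 ^ f) ^ 4 + 1))) := by
      rw [pow_mul 2 f 12, one_mul]; exact h0
    have ho : Odd ((2 ^ f) ^ 8 + (2 ^ f) ^ 4 + 1) := by
      refine Even.add_one ?_
      refine Even.add ?_ ?_ <;>
      · rw [even_iff_two_dvd, ← pow_mul]
        exact dvd_pow_self _ (by omega)
    have hp := hk.pin (d := 1) odd_one ((odd_sub' (e := 2) hf (by norm_num)).mul
      ((odd_sub' (e := 6) hf (by norm_num)).mul ho)) h1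
    omega

theorem twoF4 {K : Type*} [Group K] (h : Lie.Iso2F4 K) (hk : N18 (Nat.card K)) : False := by
  obtain ⟨F, _, _, m, hm, hF, ⟨e⟩⟩ := h
  have h0 := Cfsg.Agent.S1068.result hF
  rw [← Nat.card_congr e.toEquiv] at h0
  refine hk.big (d := 1) odd_one ((one_mul _).trans h0) ?_
  have h1 : 2 ^ 19 ∣ (2 ^ (2 * m + 1)) ^ 12 := by
    rw [← pow_mul]; exact pow_dvd_pow _ (by omega)
  exact h1.trans (by simp only [mul_assoc]; exact dvd_mul_right _ _)

/-- **The table.** -/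
theorem lie {K : Type*} [Group K] (h : IsLieTypeChar 2 K) (hk : N18 (Nat.card K)) :
    (∃ (F : Type) (_ : Field F) (_ : Fintype F) (_ : CharP F 2), Fintype.card F = 64 ∧
      Nonempty (K ≃* Matrix.ProjectiveSpecialLinearGroup (Fin 3) F)) ∨
    (∃ (F : Type) (_ : Field F) (_ : Fintype F) (_ : CharP F 2), Fintype.card F = 8 ∧
      Nonempty (K ≃* Matrix.ProjectiveSpecialLinearGroup (Fin 4) F)) ∨
    (∃ (F : Type) (_ : Field F) (_ : Fintype F) (_ : CharP F 2), Fintype.card F = 4 ∧ Nonempty (K ≃* PSp 3 F)) ∨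
    (∃ (F : Type) (_ : Field F) (_ : Fintype F) (_ : CharP F 2), Fintype.card F = 64 ∧
      Nonempty (K ≃* PSU 4 F 8)) := by
  rcases h with h | h | h | h | h | h | h | h | h | h | h
  · obtain ⟨F, _, _, _, n, hn, h4, ⟨e⟩⟩ := h
    obtain ⟨f, hf, hF⟩ := exists_pow (F := F)
    rw [Nat.card_congr e.toEquiv] at hk
    rcases psl hF hf hn hk with ⟨rfl, rfl⟩ | ⟨rfl, rfl⟩
    · exact Or.inl ⟨F, inferInstance, inferInstance, inferInstance, by rw [hF]; norm_num, ⟨e⟩⟩
    · exact Or.inr (Or.inl ⟨F, inferInstance, inferInstance, inferInstance, by rw [hF]; norm_num, ⟨e⟩⟩)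
  · obtain ⟨F, _, _, _, m, hm, h4, ⟨e⟩⟩ := h
    obtain ⟨f, hf, hF⟩ := exists_pow (F := F)
    rw [Nat.card_congr e.toEquiv] at hk
    obtain ⟨rfl, rfl⟩ := psp hF hf hm hk
    exact Or.inr (Or.inr (Or.inl ⟨F, inferInstance, inferInstance, inferInstance, by rw [hF]; norm_num, ⟨e⟩⟩))
  · obtain ⟨F, _, _, _, n, q, hq, hn, h3, ⟨e⟩⟩ := h
    obtain ⟨f, hf, rfl⟩ := exists_pow' (by norm_num) hq
    rw [Nat.card_congr e.toEquiv] at hk
    obtain ⟨rfl, rfl⟩ := psu hq hf hn hk
    exact Or.inr (Or.inr (Or.inr ⟨F, inferInstance, inferInstance, inferInstance, by rw [hq]; norm_num, ⟨e⟩⟩))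
  · obtain ⟨F, _, _, _, m, -, ho, -⟩ := h
    exfalso
    obtain ⟨f, hf, hF⟩ := exists_pow (F := F)
    rw [hF] at ho
    exact (Nat.not_odd_iff_even.2 (even_iff_two_dvd.2 (dvd_pow_self _ (by omega)))) ho
  · obtain ⟨F, _, _, _, m, hm, ⟨e⟩⟩ := h
    exfalso
    obtain ⟨f, hf, hF⟩ := exists_pow (F := F)
    rw [Nat.card_congr e.toEquiv] at hk
    exact plus hF hf hm hk
  · obtain ⟨F, _, _, _, m, a, b, hm, hab, ⟨e⟩⟩ := h
    exfalso
    obtain ⟨f, hf, hF⟩ := exists_pow (F := F)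
    rw [Nat.card_congr e.toEquiv] at hk
    exact minus hF hf hm a b hab hk
  · obtain ⟨F, _, _, _, h⟩ := h
    exact (exc h hk).elim
  · obtain ⟨F, _, _, _, q, hq, h⟩ := h
    exact (twisted hq h hk).elim
  · exact (Cfsg.Agent.OddCyclic.CompMain.not_three_dvd h.2 ((by norm_num : 3 ∣ 405).trans hk.dvd)).elim
  · exact (twoF4 h.2 hk).elim
  · exact absurd h.1 (by norm_num)

/-! ### commuting elements of orders 2 and 5 -/

/-- lift to a central extension by a group of exponent dividing 3 -/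
theorem lift {H K : Type*} [Group H] [Group K] {π : H →* K} (hs : Function.Surjective π)
    (hker : ∀ z, π z = 1 → (∀ x, z * x = x * z) ∧ z ^ 3 = 1) {t y : K} (ht : orderOf t = 2) (hy : orderOf y = 5)
    (hc : y * t = t * y) : ∃ T Y : H, T ^ 2 = 1 ∧ T ≠ 1 ∧ Y ^ 5 = 1 ∧ Y ≠ 1 ∧ T * Y = Y * T := by
  obtain ⟨T, hT⟩ := hs t
  obtain ⟨Y, hY⟩ := hs y
  have ht2 : t ^ 2 = 1 := by rw [← ht, pow_orderOf_eq_one]
  have hy5 : y ^ 5 = 1 := by rw [← hy, pow_orderOf_eq_one]
  have hT3 : π (T ^ 3) = t := by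
    rw [map_pow, hT, pow_succ, ht2, one_mul]
  have hY6 : π (Y ^ 6) = y := by
    rw [map_pow, hY, pow_succ, hy5, one_mul]
  have h1 : (T ^ 3) ^ 2 = 1 := by
    rw [← pow_mul, mul_comm, pow_mul]
    exact (hker _ (by rw [map_pow, hT, ht2])).2
  have h2 : (Y ^ 6) ^ 5 = 1 := by
    rw [← pow_mul, show 6 * 5 = (5 * 3) * 2 by norm_num, pow_mul, pow_mul]
    rw [(hker (Y ^ 5) (by rw [map_pow, hY, hy5])).2, one_pow]
  refine ⟨T ^ 3, Y ^ 6, h1, ?_, h2, ?_, ?_⟩
  · intro h3
    rw [h3, map_one] at hT3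
    rw [← hT3, orderOf_one] at ht
    omega
  · intro h3
    rw [h3, map_one] at hY6
    rw [← hY6, orderOf_one] at hy
    omega
  · generalize T ^ 3 = A at *
    generalize Y ^ 6 = B at *
    obtain ⟨z, hz⟩ : ∃ z, z = A * B * A⁻¹ * B⁻¹ := ⟨_, rfl⟩
    have h3 : π z = 1 := by
      rw [hz, map_mul, map_mul, map_mul, map_inv, map_inv, hT3, hY6, ← hc]
      group
    obtain ⟨hzc, hz3⟩ := hker z h3
    -- `A B A⁻¹ = z B`, hence `B = A² B A⁻² = z² B`
    have h4 : A * B * A⁻¹ = z * B := by rw [hz]; group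
    have hA : A * A = 1 := by rw [← pow_two]; exact h1
    have hA' : A⁻¹ = A := inv_eq_of_mul_eq_one_left hA
    have h5 : B = z * z * B := by
      calc B = (A * A) * B * (A * A) := by rw [hA, one_mul, mul_one]
        _ = A * (A * B * A⁻¹) * A⁻¹ := by rw [hA']; group
        _ = A * (z * B) * A⁻¹ := by rw [h4]
        _ = z * (A * B * A⁻¹) := by rw [← mul_assoc A z B, ← hzc A]; simp only [mul_assoc]
        _ = z * z * B := by rw [h4, mul_assoc]
    have h6 : z * z = 1 := by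
      have h7 : 1 * B = z * z * B := by rw [one_mul]; exact h5
      exact (mul_right_cancel h7).symm
    have h7 : z = 1 := by
      have h8 : z ^ 3 = z * z * z := by rw [pow_succ, pow_two]
      rw [h8, h6, one_mul] at hz3
      exact hz3
    rw [h7, one_mul] at h4
    exact mul_inv_eq_iff_eq_mul.1 h4

theorem exists_five {K : Type*} [Group K] [Finite K] {t : K} (h : 5 ∣ Nat.card (centralizer ({t} : Set K))) :
    ∃ y : K, orderOf y = 5 ∧ y * t = t * y := by
  have : Fact (Nat.Prime 5) := ⟨by norm_num⟩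
  obtain ⟨y, hy⟩ := exists_prime_orderOf_dvd_card' (G := centralizer ({t} : Set K)) 5 h
  refine ⟨y, ?_, mem_centralizer_singleton_iff.1 y.2⟩
  rw [Subgroup.orderOf_coe]; exact hy

section Mat

variable {F : Type*} [Field F] {n : ℕ}

/-- a commuting pair of matrices as a pair of linear maps -/
theorem pair {T Y : Matrix.SpecialLinearGroup (Fin n) F} (h2 : T ^ 2 = 1) (h1 : T ≠ 1) (h5 : Y ^ 5 = 1)
    (hc : T * Y = Y * T) :
    S3Lin.Pair (Matrix.mulVecLin (Y : Matrix (Fin n) (Fin n) F)) (Matrix.mulVecLin (T : Matrix (Fin n) (Fin n) F)) where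
  five v := by
    simp only [Matrix.mulVecLin_apply, Matrix.mulVec_mulVec]
    have h : (Y : Matrix (Fin n) (Fin n) F) * (Y * (Y * (Y * Y))) = 1 := by
      have h3 := congrArg (fun A : Matrix.SpecialLinearGroup (Fin n) F => (A : Matrix (Fin n) (Fin n) F)) h5
      simp only [Matrix.SpecialLinearGroup.coe_pow, Matrix.SpecialLinearGroup.coe_one] at h3
      rw [← h3]
      simp only [pow_succ, pow_zero, one_mul, mul_assoc]
    first | rw [h, Matrix.one_mulVec] | (simp only [mul_assoc]; rw [h, Matrix.one_mulVec])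
  two v := by
    simp only [Matrix.mulVecLin_apply, Matrix.mulVec_mulVec]
    have h3 : (T : Matrix (Fin n) (Fin n) F) * T = 1 := by
      rw [← Matrix.SpecialLinearGroup.coe_mul, ← pow_two, h2]; rfl
    rw [h3, Matrix.one_mulVec]
  ne := by
    by_contra hne
    push Not at hne
    apply h1
    apply Matrix.SpecialLinearGroup.ext
    intro i j
    have h3 : (T : Matrix (Fin n) (Fin n) F) = 1 := by
      apply Matrix.toLin'.injective
      ext1 k
      apply LinearMap.ext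
      intro c
      simp only [LinearMap.comp_apply, Matrix.toLin'_apply, Matrix.one_mulVec]
      exact hne _
    rw [h3]; rfl
  comm v := by
    simp only [Matrix.mulVecLin_apply, Matrix.mulVec_mulVec]
    have h3 := congrArg (fun A : Matrix.SpecialLinearGroup (Fin n) F => (A : Matrix (Fin n) (Fin n) F)) hc
    simp only [Matrix.SpecialLinearGroup.coe_mul] at h3
    rw [h3]

theorem eq_one {Y : Matrix.SpecialLinearGroup (Fin n) F}
    (h : ∀ v, Matrix.mulVecLin (Y : Matrix (Fin n) (Fin n) F) v = v) : Y = 1 := by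
  apply Matrix.SpecialLinearGroup.ext
  intro i j
  have h3 : (Y : Matrix (Fin n) (Fin n) F) = 1 := by
    apply Matrix.toLin'.injective
    ext1 k
    apply LinearMap.ext
    intro c
    simp only [LinearMap.comp_apply, Matrix.toLin'_apply, Matrix.one_mulVec]
    exact h _
  rw [h3]; rfl

end Mat

/-- centres of `SL₃(64)` and `SL₄(8)` -/
theorem center_cube {F : Type*} [Field F] [Fintype F] {n : ℕ} (hn : (n = 3) ∨ (n = 4 ∧ Fintype.card F = 8))
    {z : Matrix.SpecialLinearGroup (Fin n) F} (hz : z ∈ center (Matrix.SpecialLinearGroup (Fin n) F)) : z ^ 3 = 1 := by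
  obtain ⟨r, hr, hrz⟩ := Matrix.SpecialLinearGroup.mem_center_iff.1 hz
  rw [Fintype.card_fin] at hr
  have h3 : r ^ 3 = 1 := by
    rcases hn with rfl | ⟨rfl, hF⟩
    · exact hr
    · have h8 : r ^ 8 = r := by rw [← hF]; exact FiniteField.pow_card r
      have h9 : r ^ 8 = (r ^ 4) ^ 2 := by ring
      rw [h9, hr, one_pow] at h8
      rw [← h8, one_pow]
  apply Matrix.SpecialLinearGroup.ext
  intro i j
  rw [Matrix.SpecialLinearGroup.coe_pow, ← hrz, ← map_pow, h3, map_one]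
  rfl

theorem kill_psl {M : Type*} [Group M] [Finite M] {F : Type*} [Field F] [Fintype F] [CharP F 2] {n : ℕ}
    (hn : (n = 3 ∧ Fintype.card F = 64) ∨ (n = 4 ∧ Fintype.card F = 8))
    (e : M ≃* Matrix.ProjectiveSpecialLinearGroup (Fin n) F) {t : M} (ht : orderOf t = 2)
    (hc : 5 ∣ Nat.card (centralizer ({t} : Set M))) : False := by
  obtain ⟨y, hy, hyt⟩ := exists_five hc
  have hn' : (n = 3) ∨ (n = 4 ∧ Fintype.card F = 8) := by
    rcases hn with h | h
    · exact Or.inl h.1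
    · exact Or.inr h
  obtain ⟨T, Y, h2, h1, h5, h51, hTY⟩ := lift
    (π := e.symm.toMonoidHom.comp (QuotientGroup.mk' (center (Matrix.SpecialLinearGroup (Fin n) F))))
    (e.symm.surjective.comp (QuotientGroup.mk'_surjective _)) (fun z hz => by
      have h3 : z ∈ center (Matrix.SpecialLinearGroup (Fin n) F) := by
        have h4 : e.symm (QuotientGroup.mk' (center (Matrix.SpecialLinearGroup (Fin n) F)) z) = 1 := hz
        have h5 : QuotientGroup.mk' (center (Matrix.SpecialLinearGroup (Fin n) F)) z = 1 :=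
          (map_eq_one_iff e.symm e.symm.injective).1 h4
        rwa [← MonoidHom.mem_ker, QuotientGroup.ker_mk'] at h5
      exact ⟨fun x => (mem_center_iff.1 h3 x).symm, center_cube hn' h3⟩) ht hy hyt
  apply h51
  apply eq_one
  rcases hn with ⟨rfl, hF⟩ | ⟨rfl, hF⟩
  · exact S3Lin.three_sixtyfour (by rw [Nat.card_eq_fintype_card, hF]) (by simp) (pair h2 h1 h5 hTY)
  · exact S3Lin.four_eight (by rw [Nat.card_eq_fintype_card, hF]) (by simp) (pair h2 h1 h5 hTY)

/-- the standard Hermitian form -/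
theorem herm {F : Type*} [Field F] [Fintype F] [CharP F 2] (hF : Fintype.card F = 64)
    (Y : SU 4 F 8) :
    S3Lin.Herm (hermForm 4 F 8) (Matrix.mulVecLin ((Y : Matrix.SpecialLinearGroup (Fin 4) F) : Matrix (Fin 4) (Fin 4) F)) where
  add_left u v w := by
    simp only [hermForm, Pi.add_apply, add_mul, Finset.sum_add_distrib]
  add_right u v w := by
    have hadd : ∀ x y : F, (x + y) ^ 8 = x ^ 8 + y ^ 8 := fun x y => add_pow_char_pow (p := 2) (n := 3) x y
    simp only [hermForm, Pi.add_apply, hadd, mul_add, Finset.sum_add_distrib]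
  smul_left c u v := by
    simp only [hermForm, Pi.smul_apply, smul_eq_mul, Finset.mul_sum, mul_assoc]
  smul_right c u v := by
    simp only [hermForm, Pi.smul_apply, smul_eq_mul, Finset.mul_sum, mul_pow]
    exact Finset.sum_congr rfl fun i _ => by ring
  symm u v := by
    have : Fact (Nat.Prime 2) := ⟨Nat.prime_two⟩
    have h88 : ∀ x : F, (x ^ 8) ^ 8 = x := fun x => by
      rw [← pow_mul, show 8 * 8 = 64 by norm_num, ← hF]; exact FiniteField.pow_card x
    simp only [hermForm]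
    have h1 := sum_pow_char_pow (R := F) 2 3 Finset.univ (fun i => u i * v i ^ 8)
    rw [show (2 : ℕ) ^ 3 = 8 by norm_num] at h1
    rw [h1]
    exact Finset.sum_congr rfl fun i _ => by rw [mul_pow, h88, mul_comm]
  nondeg u h := by
    funext i
    have h1 := h (Pi.single i 1)
    rw [hermForm, Finset.sum_eq_single i] at h1
    · rw [Pi.single_eq_same, one_pow, mul_one] at h1
      exact h1
    · intro j _ hj
      rw [Pi.single_eq_of_ne hj, zero_pow (by norm_num), mul_zero]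
    · intro h2
      exact absurd (Finset.mem_univ i) h2
  inv u v := Y.2 u v

theorem kill_psu {M : Type*} [Group M] [Finite M] {F : Type*} [Field F] [Fintype F] [CharP F 2]
    (hF : Fintype.card F = 64) (e : M ≃* PSU 4 F 8) {t : M} (ht : orderOf t = 2)
    (hc : 5 ∣ Nat.card (centralizer ({t} : Set M))) : False := by
  obtain ⟨y, hy, hyt⟩ := exists_five hc
  have hcen : center (SU 4 F 8) = ⊥ := by
    have h1 := Cfsg.Agent.S0279.result (F := F) (q := 8) (by rw [hF]; norm_num) 4 (by norm_num)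
    have h2 : Nat.gcd 4 (8 + 1) = 1 := by norm_num
    rw [h2] at h1
    exact Subgroup.card_eq_one.1 h1
  obtain ⟨T, Y, h2, h1, h5, h51, hTY⟩ := lift
    (π := e.symm.toMonoidHom.comp (QuotientGroup.mk' (center (SU 4 F 8))))
    (e.symm.surjective.comp (QuotientGroup.mk'_surjective _)) (fun z hz => by
      have h3 : z ∈ center (SU 4 F 8) := by
        have h4 : e.symm (QuotientGroup.mk' (center (SU 4 F 8)) z) = 1 := hz
        have h5 : QuotientGroup.mk' (center (SU 4 F 8)) z = 1 :=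
          (map_eq_one_iff e.symm e.symm.injective).1 h4
        rwa [← MonoidHom.mem_ker, QuotientGroup.ker_mk'] at h5
      rw [hcen, mem_bot] at h3
      subst h3
      exact ⟨fun x => by rw [one_mul, mul_one], one_pow 3⟩) ht hy hyt
  apply h51
  apply Subtype.ext
  apply eq_one
  refine S3Lin.unitary (by rw [Nat.card_eq_fintype_card, hF]) (by simp) (herm hF Y)
    (pair (T := (T : Matrix.SpecialLinearGroup (Fin 4) F)) ?_ ?_ ?_ ?_)
  · rw [← Subgroup.coe_pow, h2]; rfl
  · intro h; exact h1 (Subtype.ext h)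
  · rw [← Subgroup.coe_pow, h5]; rfl
  · rw [← Subgroup.coe_mul, hTY]; rfl

/-! ### `Sp₆(4)` -/

theorem kill_psp {M : Type*} [Group M] {F : Type*} [Field F] [Fintype F] [CharP F 2] (hF : Fintype.card F = 4)
    (e : M ≃* Cfsg.PSp 3 F) {t : M} (ht : orderOf t = 2)
    (hc : 81 ∣ Nat.card (centralizer ({t} : Set M))) : False := by
  have hcen : center (Matrix.symplecticGroup (Fin 3) F) = ⊥ := by
    have h1 := Cfsg.Agent.S0246.result (F := F) hF 3 (by norm_num)
    norm_num at h1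
    exact h1
  have hbij : Function.Bijective (QuotientGroup.mk' (center (Matrix.symplecticGroup (Fin 3) F))) := by
    refine ⟨?_, QuotientGroup.mk'_surjective _⟩
    rw [← MonoidHom.ker_eq_bot_iff, QuotientGroup.ker_mk', hcen]
  let e2 : Matrix.symplecticGroup (Fin 3) F ≃* Cfsg.PSp 3 F := MulEquiv.ofBijective _ hbij
  let E : M ≃* Matrix.symplecticGroup (Fin 3) F := e.trans e2.symm
  set T : Matrix.symplecticGroup (Fin 3) F := E t with hT
  have hTo : orderOf T = 2 := by rw [hT, ← ht]; exact E.orderOf_eq t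
  have hT2 : T ^ 2 = 1 := by rw [← hTo]; exact pow_orderOf_eq_one T
  have hT1 : T ≠ 1 := by
    intro h; rw [h, orderOf_one] at hTo; omega
  have h405 : 81 ∣ Nat.card (centralizer ({T} : Set (Matrix.symplecticGroup (Fin 3) F))) := by
    have h1 : (centralizer ({t} : Set M)).map E.toMonoidHom = centralizer {T} := by
      ext x
      constructor
      · rintro ⟨y, hy, rfl⟩
        rw [mem_centralizer_singleton_iff]
        have h3 : y * t = t * y := mem_centralizer_singleton_iff.1 hy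
        have h4 := congrArg E h3
        rwa [map_mul, map_mul] at h4
      · intro hx
        refine ⟨E.symm x, ?_, E.apply_symm_apply _⟩
        rw [SetLike.mem_coe, mem_centralizer_singleton_iff]
        apply E.injective
        rw [map_mul, map_mul, E.apply_symm_apply]
        exact mem_centralizer_singleton_iff.1 hx
    rw [← h1, card_map_of_injective E.injective]
    exact hc
  -- the rank
  obtain ⟨s, hs⟩ : ∃ s, ((T : Matrix (Fin 3 ⊕ Fin 3) (Fin 3 ⊕ Fin 3) F) - 1).rank = s := ⟨_, rfl⟩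
  have hs0 : 1 ≤ s := by
    by_contra h0
    have h0' : s = 0 := by omega
    apply hT1
    rw [h0', Matrix.rank, Submodule.finrank_eq_zero, LinearMap.range_eq_bot] at hs
    have h3 : (T : Matrix (Fin 3 ⊕ Fin 3) (Fin 3 ⊕ Fin 3) F) - 1 = 0 := by
      apply Matrix.toLin'.injective
      rw [map_zero]
      exact hs
    exact Subtype.ext (sub_eq_zero.1 h3)
  have hs3 : s ≤ 3 := by
    have hTT : (T : Matrix (Fin 3 ⊕ Fin 3) (Fin 3 ⊕ Fin 3) F) * T = 1 := by
      have := congrArg Subtype.val hT2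
      rwa [pow_two] at this
    have h1 : ((T : Matrix (Fin 3 ⊕ Fin 3) (Fin 3 ⊕ Fin 3) F) - 1) *
        ((T : Matrix (Fin 3 ⊕ Fin 3) (Fin 3 ⊕ Fin 3) F) - 1) = 0 := by
      rw [sub_mul, mul_sub, hTT, one_mul, mul_one]
      have h2 : (1 - (T : Matrix (Fin 3 ⊕ Fin 3) (Fin 3 ⊕ Fin 3) F)) -
          ((T : Matrix (Fin 3 ⊕ Fin 3) (Fin 3 ⊕ Fin 3) F) - 1) =
          (2 : F) • (1 - (T : Matrix (Fin 3 ⊕ Fin 3) (Fin 3 ⊕ Fin 3) F)) := by
        rw [two_smul]; abel
      rw [h2, CharTwo.two_eq_zero, zero_smul]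
    have h3 := Matrix.rank_add_rank_le_card_of_mul_eq_zero h1
    rw [hs] at h3
    simp at h3
    omega
  rcases Nat.even_or_odd s with hev | hodd
  · by_cases halt : ∀ v : Fin 3 ⊕ Fin 3 → F,
      Cfsg.sympForm 3 F v ((T : Matrix (Fin 3 ⊕ Fin 3) (Fin 3 ⊕ Fin 3) F).mulVec v) = 0
    · have h := Cfsg.Agent.S2681.result hF T hT2 hT1 hs hev halt
      rw [h] at h405
      clear h hs halt
      interval_cases s <;> revert hev h405 <;> simp [Fin.prod_univ_succ]
    · push Not at halt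
      have h := Cfsg.Agent.S2682.result hF T hT2 hs hev halt
      rw [h] at h405
      clear h hs halt
      interval_cases s <;> revert hev h405 <;> simp [Fin.prod_univ_succ]
  · have h := Cfsg.Agent.S2680.result hF T hT2 hs hodd
    rw [h] at h405
    clear h hs
    interval_cases s <;> revert hodd h405 <;> simp [Fin.prod_univ_succ]

/-- **Characteristic 2, Sylow 2-subgroups of order `2^18`.** -/
theorem lie18 {M : Type*} [Group M] [Finite M] (h : IsLieTypeChar 2 M) {t : M} (ht : orderOf t = 2)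
    (hc : 405 ∣ Nat.card (centralizer ({t} : Set M))) (ho : ∃ m, Odd m ∧ Nat.card M = 2 ^ 18 * m) : False := by
  have h5 : 5 ∣ Nat.card (centralizer ({t} : Set M)) := (by norm_num : 5 ∣ 405).trans hc
  rcases lie h ⟨ho, hc.trans (card_subgroup_dvd_card _)⟩ with h1 | h1 | h1 | h1
  · obtain ⟨F, _, _, _, hF, ⟨e⟩⟩ := h1
    exact kill_psl (Or.inl ⟨rfl, hF⟩) e ht h5
  · obtain ⟨F, _, _, _, hF, ⟨e⟩⟩ := h1
    exact kill_psl (Or.inr ⟨rfl, hF⟩) e ht h5
  · obtain ⟨F, _, _, _, hF, ⟨e⟩⟩ := h1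
    exact kill_psp hF e ht ((by norm_num : 81 ∣ 405).trans hc)
  · obtain ⟨F, _, _, _, hF, ⟨e⟩⟩ := h1
    exact kill_psu hF e ht h5

end Cfsg.Agent.H836.Lie18
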